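/- U4 tower (row S5210), job Model: the Sylow subgroup of the unitary group of degree four in coordinates. -/
import Cfsg.Agent.H28.U4Gen
import Cfsg.Agent.H85.U3Syl

set_option autoImplicit false
set_option linter.unusedSectionVars false
set_option linter.unusedSimpArgs false

open Subgroup H28.U4 Matrix
open H90.U5 (BF)

namespace H54.U4

universe v

variable {K : Type*} [Field K] {T : BF K}

/-- the matrix of an element -/
def mat (u : Co T) : Matrix (Fin 4) (Fin 4) K :=
  !![1, u.a, u.c, u.d;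
     0, 1, u.b, T.σ u.c - T.σ u.a * u.b;
     0, 0, 1, -T.σ u.a;
     0, 0, 0, 1]

theorem mat_one : mat (1 : Co T) = 1 := by
  ext i j; fin_cases i <;> fin_cases j <;> simp [mat]

theorem mat_mul (u w : Co T) : mat (u * w) = mat u * mat w := by
  ext i j
  fin_cases i <;> fin_cases j <;> simp [mat, Matrix.mul_apply, Fin.sum_univ_four, T.sq] <;> ring

theorem mat_det (u : Co T) : (mat u).det = 1 := by
  rw [det_of_isUpperTriangular (fun i j h => by
    fin_cases i <;> fin_cases j <;> first | rfl | simp at h)]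
  simp [mat, Fin.prod_univ_four]

theorem mat_inj {u : Co T} (h : mat u = 1) : u = 1 := by
  have e := fun i j => congrFun (congrFun h i) j
  exact Co.ext (by simpa [mat] using e 0 1) (by simpa [mat] using e 1 2) (by simpa [mat] using e 0 2)
    (by simpa [mat] using e 0 3)

/-- the representation -/
def rep (T : BF K) : Co T →* GL (Fin 4) K :=
  MonoidHom.toHomUnits ⟨⟨mat, mat_one⟩, mat_mul⟩

/-- the antidiagonal form -/
def form (T : BF K) : (Fin 4 → K) →ₛₗ[T.σ] (Fin 4 → K) →ₗ[K] K :=
  LinearMap.mk₂'ₛₗ T.σ (RingHom.id K)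
    (fun x y => T.ε * (T.σ (x 0) * y 3 + T.σ (x 1) * y 2 - T.σ (x 2) * y 1 - T.σ (x 3) * y 0))
    (fun a b v => by simp; ring) (fun c a v => by simp; ring)
    (fun a b v => by simp; ring) (fun c a v => by simp; ring)

theorem form_apply (x y : Fin 4 → K) : form T x y =
    T.ε * (T.σ (x 0) * y 3 + T.σ (x 1) * y 2 - T.σ (x 2) * y 1 - T.σ (x 3) * y 0) := rfl

theorem isHerm_form : H59.IsHerm (form T) where
  ne_id e := T.ne (by rw [e]; rfl)
  invol := T.sq
  symm x y := by simp only [form_apply, BF.ε, map_add, map_sub, map_mul, T.sq]; ring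
  nondeg x hx := by
    have e := fun i => hx (Pi.single i 1)
    have h := T.ε_ne
    ext i
    fin_cases i
    · simpa [form_apply, h] using e 3
    · simpa [form_apply, h] using e 2
    · simpa [form_apply, h] using e 1
    · simpa [form_apply, h] using e 0

theorem form_mat (u : Co T) (x y : Fin 4 → K) : form T (mat u *ᵥ x) (mat u *ᵥ y) = form T x y := by
  simp only [form_apply]
  congr 1
  simp [mat, Matrix.mulVec, dotProduct, Fin.sum_univ_four, T.sq, Co.σd]
  ring

theorem exists_hom : ∃ f : Co T →* H59.sisom (form T), Function.Injective f :=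
  ⟨((H59.glEquiv (Fin 4) K).toMonoidHom.comp (rep T)).codRestrict _ fun u => ⟨form_mat u, by
    change LinearEquiv.det (H59.glEquiv (Fin 4) K (rep T u)) = 1
    rw [H59.det_glEquiv]
    ext
    rw [Matrix.GeneralLinearGroup.val_det_apply, Units.val_one]
    exact mat_det u⟩, (injective_iff_map_eq_one _).2 fun u h => mat_inj
      (congrArg Units.val ((map_eq_one_iff _ (H59.glEquiv (Fin 4) K).injective).1
        (congrArg Subtype.val h)))⟩

theorem model {p : ℕ} [hp : Fact p.Prime] [Fintype K] {n q : ℕ} (hn : 1 ≤ n) (hq : p ^ n = q)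
    (hK : Fintype.card K = q ^ 2) (S : Sylow p (Cfsg.PSU 4 K q)) :
    ∃ T : BF K, Nonempty ((S : Subgroup (Cfsg.PSU 4 K q)) ≃* Co T) := by
  have hd : p ∣ q := hq ▸ dvd_pow_self p (by omega)
  obtain ⟨ω, hω⟩ : ∃ ω, H59.frob hK ω ≠ ω := by
    by_contra! h
    exact H59.frob_ne_id hK (RingHom.ext h)
  let T : BF K := ⟨H59.frob hK, H59.frob_frob hK, ω, hω⟩
  have h2 := H59.two_le_q hK
  have hc : Nat.card (Co T) = q ^ 6 := by
    rw [card_Co, Nat.card_eq_fintype_card, hK, show Nat.card T.κ = q from H59.card_fixed hK]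
    ring
  obtain ⟨f, hf⟩ := exists_hom (T := T)
  obtain ⟨e⟩ := H59.IsHerm.nonempty_sisom_equiv_SU hK (B := form T) isHerm_form (n := 4) (by simp)
  have hg : Function.Injective ((QuotientGroup.mk' (center (Cfsg.SU 4 K q))).comp
      (e.toMonoidHom.comp f)) := (injective_iff_map_eq_one _).2 fun x hx => by
    have h1 := Subgroup.orderOf_dvd_natCard _ ((QuotientGroup.eq_one_iff (e (f x))).1 hx)
    rw [H59.card_center_SU hK (by norm_num), e.orderOf_eq, orderOf_injective f hf] at h1
    exact orderOf_eq_one_iff.1 (Nat.eq_one_of_dvd_coprimes (by simp : Nat.Coprime (q + 1) (q ^ 6))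
      (h1.trans (Nat.gcd_dvd_right _ _)) (hc ▸ orderOf_dvd_natCard x))
  obtain ⟨m, hm⟩ := Subgroup.card_dvd_of_injective _ hg
  refine ⟨T, H85.nonempty_equiv_sylow_of_hom _ hg (k := n * 6) (m := m) (by rw [hc, pow_mul, hq])
    (by rw [hm, hc, pow_mul, hq]) (fun h => ?_) S⟩
  have h3 := H59.card_PSU hK (n := 4) (by norm_num)
  rw [hm, hc, H59.ordGU, mul_left_comm (q + 1), mul_left_comm] at h3
  have h4 := h.trans ((Dvd.intro_left _ rfl).trans (Dvd.intro_left _
    (Nat.eq_of_mul_eq_mul_left (by positivity) h3)))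
  obtain ⟨i, -, hi⟩ := (Prime.dvd_finsetProd_iff hp.out.prime _).1 h4
  have h5 : p ∣ q ^ (i + 1) := dvd_pow hd (by omega)
  refine hp.out.one_lt.ne' (Nat.dvd_one.1 ?_)
  split_ifs at hi
  · exact (Nat.dvd_add_right h5).1 hi
  · exact (Nat.dvd_sub_iff_right (Nat.one_le_pow _ _ (by omega)) h5).1 hi

theorem jobModel : JobModel.{v} := fun _ _ _ _ _ _ _ hn hK S => model hn rfl hK S

end H54.U4
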