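import Cfsg.Agent.H9.CKASpec

/-! CKS (S2193), slot TD: three double cosets at every node, classical Weyl groups. -/

set_option autoImplicit false
set_option linter.unusedSectionVars false

namespace H54.CK

open Cfsg H64 H9.CK Matrix

section Gen

variable {F J κ G : Type*} [Field F] [Fintype J] [DecidableEq J] [Fintype κ] [Group G]
  {D : CD F J κ G} (P : D.Ht)

theorem sR_mem (r : D.Rt) : CD.sR r ∈ P.wd.W := by
  obtain ⟨v, i, rfl⟩ := P.wd.exists_simple r
  obtain ⟨L, h1, h2⟩ := CD.exists_lin _ v.2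
  have : CD.sR (v.1 (P.wd.p i)) * v.1 = v.1 * P.wd.s i := Equiv.ext fun c => Subtype.ext (by
    rw [Equiv.Perm.mul_apply, Equiv.Perm.mul_apply, CD.sR_val, h1, h1, h1, P.wd_s, reflH_apply,
      reflH_apply, map_sub, map_zsmul, h2, h2]; rfl)
  rw [eq_mul_inv_of_mul_eq this]
  exact mul_mem (mul_mem v.2 (P.wd.sW i).2) (inv_mem v.2)

theorem not_two (i : P.Sim) (ω : (κ → ℤ) →+ ℤ)
    (h0 : ∀ r, D.IsRoot r → P.ht r = 1 → ω r = 0 ∨ r = i.1.1) (hi : 0 ≤ ω i.1.1) {a b : κ → ℤ}
    (ha : D.IsRoot a) (hb : D.IsRoot b) (hab : a ⬝ᵥ b = 0) (h1 : 0 < ω a) (h2 : 0 < ω b) :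
    ¬ TwoAt P.wd i := by
  refine not_twoAt (fun r => ω r.1) (fun j hj r => ?_) (fun r hr => ?_) (fun r => map_neg ω r.1)
    ⟨_, mul_mem (sR_mem P ⟨a, ha⟩) (sR_mem P ⟨b, hb⟩)⟩ (a := ⟨a, ha⟩) (b := ⟨b, hb⟩) (fun e => ?_)
    h1 h2 ?_ ?_
  · rw [P.wd_s, reflH_apply, map_sub, map_zsmul,
      (h0 _ j.1.2 j.2).resolve_right fun e => hj (Subtype.ext (Subtype.ext e)), smul_zero, sub_zero]
  · exact neg_nonpos.1 (P.negall (-ω) (fun c hc h => neg_nonpos.2
      ((h0 c hc h).elim (fun e => e.ge) fun e => e ▸ hi)) r.1 r.2 hr)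
  · obtain rfl : a = b := congrArg Subtype.val e
    rcases ha.dot_self with h | h <;> omega
  · change ω (reflH a (reflH b a)) < 0
    rw [reflH_apply b, hab, mul_zero, zero_smul, sub_zero, reflH_self ha.two_div, map_neg]
    omega
  · change ω (reflH a (reflH b b)) < 0
    rw [reflH_self hb.two_div, map_neg, reflH_apply a, dotProduct_comm b, hab, mul_zero, zero_smul,
      sub_zero, map_neg]
    omega

end Gen

section Std

variable {F J G : Type*} [Field F] [Fintype J] [DecidableEq J] [Group G] {m : ℕ}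
  {D : CD F J (Fin m) G}

theorem sim_cases (hwt : ∀ a, IsStdWt (D.wt a)) {δ : ℤ} (h0 : D.short → δ = 0)
    (h1 : ¬ D.short → δ = 1) {r : Fin m → ℤ} (hr : D.IsRoot r) (h : htFin m δ r = 1) :
    (∃ k l : Fin m, k.1 + 1 = l.1 ∧ r = Pi.single k 1 - Pi.single l 1) ∨
    (¬ D.short ∧ ∃ k l : Fin m, k.1 + 2 = m ∧ l.1 + 1 = m ∧ r = Pi.single k 1 + Pi.single l 1) ∨
    (D.short ∧ ∃ k : Fin m, k.1 + 1 = m ∧ r = Pi.single k 1) := by
  have hδ : δ = 0 ∨ δ = 1 := (em D.short).imp h0 h1
  rcases hr.std_cases hwt with ⟨k, l, e, rfl⟩ | ⟨-, k, l, e, rfl | rfl⟩ | ⟨hs, k, rfl | rfl⟩ <;>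
    simp only [map_sub, map_add, map_neg, htFin_single] at h <;> have := k.2
  · exact Or.inl ⟨k, l, by omega, rfl⟩
  · have := l.2
    have := Fin.val_ne_of_ne e
    refine Or.inr (Or.inl ⟨fun s => by have := h0 s; omega, ?_⟩)
    rcases lt_or_gt_of_ne this with c | c
    · exact ⟨k, l, by omega, by omega, rfl⟩
    · exact ⟨l, k, by omega, by omega, add_comm _ _⟩
  · have := l.2; have := Fin.val_ne_of_ne e; omega
  · exact Or.inr (Or.inr ⟨hs, k, by have := h0 hs; omega, rfl⟩)
  · have := h0 hs; omega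

theorem dotH_single (c : Fin m → ℤ) (k : Fin m) : dotH c (Pi.single k 1) = c k := by simp

theorem td (P : D.Ht) (hwt : ∀ a, IsStdWt (D.wt a)) (hup : ∀ k, ∃ a, D.wt a = Pi.single k 1)
    (hng : ∀ a, ∃ b, D.wt b = -D.wt a) {δ : ℤ} (hP : P.ht = htFin m δ) (h0 : D.short → δ = 0)
    (h1 : ¬ D.short → δ = 1) (h2 : 2 ≤ m) (h4 : ¬ D.short → 4 ≤ m) (i : P.Sim) :
    ¬ TwoAt P.wd i := by
  have sim : ∀ r, D.IsRoot r → P.ht r = 1 → _ := fun r hr h => sim_cases hwt h0 h1 hr (hP ▸ h)
  have hdn : ∃ a k, D.wt a = -Pi.single k 1 := by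
    obtain ⟨a, ha⟩ := hup ⟨0, by omega⟩
    obtain ⟨b, hb⟩ := hng a
    exact ⟨b, _, ha ▸ hb⟩
  have n0 : ∀ {a b : ℕ} {ha : a < m} {hb : b < m}, a ≠ b → (⟨a, ha⟩ : Fin m) ≠ ⟨b, hb⟩ :=
    fun h e => h (congrArg Fin.val e)
  rcases sim _ i.1.2 i.2 with ⟨k, l, e, ei⟩ | ⟨s, k, l, e, e', ei⟩ | ⟨s, k, e, ei⟩
  · have := l.2
    by_cases c : D.short ∨ l.1 + 1 < m
    · refine not_two P i (dotH fun j => if j.1 ≤ k.1 then 1 else 0) (fun r hr h => ?_) ?_
        (CD.isRoot_sub hup (n0 (a := 0) (b := m - 1) (ha := by omega) (hb := by omega) (by omega)))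
        (CD.isRoot_add hup hdn (n0 (a := 0) (b := m - 1) (ha := by omega) (hb := by omega) (by omega)))
        ?_ ?_ ?_
      · rcases sim r hr h with ⟨k', l', f, rfl⟩ | ⟨s, k', l', f, f', rfl⟩ | ⟨s, k', f, rfl⟩
        · by_cases c' : k' = k
          · exact Or.inr (by rw [ei, c', show l' = l from Fin.ext (by omega)])
          · have := Fin.val_ne_of_ne c'
            simp only [map_sub, dotH_single]
            left; split_ifs <;> omega
        · have := c.resolve_left s
          simp only [map_add, dotH_single]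
          left; split_ifs <;> omega
        · simp only [dotH_single]
          left; split_ifs <;> omega
      · simp only [ei, map_sub, dotH_single]; split_ifs <;> omega
      · simp [show 0 ≠ m - 1 by omega, show m - 1 ≠ 0 by omega]
      · simp only [map_sub, dotH_single]; split_ifs <;> omega
      · simp only [map_add, dotH_single]; split_ifs <;> omega
    · have s : ¬ D.short := fun s => c (Or.inl s)
      have := h4 s
      refine not_two P i (dotH fun j => if j.1 + 1 = m then -1 else 1) (fun r hr h => ?_) ?_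
        (CD.isRoot_add hup hdn (n0 (a := 0) (b := 1) (ha := by omega) (hb := by omega) (by omega)))
        (CD.isRoot_sub hup (n0 (a := 2) (b := m - 1) (ha := by omega) (hb := by omega) (by omega)))
        ?_ ?_ ?_
      · rcases sim r hr h with ⟨k', l', f, rfl⟩ | ⟨s, k', l', f, f', rfl⟩ | ⟨s', -⟩
        · by_cases c' : k' = k
          · exact Or.inr (by rw [ei, c', show l' = l from Fin.ext (by omega)])
          · have := Fin.val_ne_of_ne c'
            have := l'.2
            simp only [map_sub, dotH_single]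
            left; split_ifs <;> omega
        · simp only [map_add, dotH_single]
          left; split_ifs <;> omega
        · exact absurd s' s
      · simp only [ei, map_sub, dotH_single]; split_ifs <;> omega
      · simp [show 0 ≠ m - 1 by omega, show 1 ≠ m - 1 by omega]
      · simp only [map_add, dotH_single]; split_ifs <;> omega
      · simp only [map_sub, dotH_single]; split_ifs <;> omega
  · have := h4 s
    refine not_two P i (dotH fun _ => 1) (fun r hr h => ?_) ?_
      (CD.isRoot_add hup hdn (n0 (a := 0) (b := 1) (ha := by omega) (hb := by omega) (by omega)))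
      (CD.isRoot_add hup hdn (n0 (a := 2) (b := 3) (ha := by omega) (hb := by omega) (by omega)))
      ?_ ?_ ?_
    · rcases sim r hr h with ⟨k', l', f, rfl⟩ | ⟨s, k', l', f, f', rfl⟩ | ⟨s', -⟩
      · simp only [map_sub, dotH_single]; left; omega
      · exact Or.inr (by
          rw [ei, show k' = k from Fin.ext (by omega), show l' = l from Fin.ext (by omega)])
      · exact absurd s' s
    · simp only [ei, map_add, dotH_single]; omega
    · simp
    · simp only [map_add, dotH_single]; omega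
    · simp only [map_add, dotH_single]; omega
  · refine not_two P i (dotH fun _ => 1) (fun r hr h => ?_) ?_
      (CD.isRoot_single hup s ⟨0, by omega⟩) (CD.isRoot_single hup s ⟨1, by omega⟩) ?_ ?_ ?_
    · rcases sim r hr h with ⟨k', l', f, rfl⟩ | ⟨s', -⟩ | ⟨-, k', f, rfl⟩
      · simp only [map_sub, dotH_single]; left; omega
      · exact absurd s s'
      · exact Or.inr (by rw [ei, show k' = k from Fin.ext (by omega)])
    · simp only [ei, dotH_single]; omega
    · simp
    · simp only [dotH_single]; omega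
    · simp only [dotH_single]; omega

end Std

theorem jobTD : JobTD := by
  intro p _ F _ _ _ m
  refine ⟨fun h => HasT.quot ⟨lieSp F m p, ?_, ?_⟩, fun q hF h => HasT.quot ⟨lieSU hF m p, ?_, ?_⟩,
    fun h o => HasT.quot ⟨lieOmegaOdd F m (H58.two_ne_zero_of_odd_card o) p, ?_, ?_⟩,
    fun h => HasT.quot ⟨lieOmegaPlus F m (H56.not_isExc_of_finrank (by simp; omega)) p, ?_, ?_⟩,
    fun a b h hab => HasT.quot ⟨lieOmegaMinus m hab p, ?_, ?_⟩⟩
  · exact LieS.nonempty_of_root _ ⟨_, CD.isRoot_sub (D := cdSp F m) (fdSp F m).wt_up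
      (H67.fin_zero_ne_one h)⟩
  · exact td (htSp F m) (fdSp F m).wt_std (fdSp F m).wt_up (fdSp F m).wt_neg rfl
      (fun s => if_pos s) (fun s => if_neg s) h fun s => absurd (cdSp_short F m) s
  · exact LieS.nonempty_of_root _ ⟨_, CD.isRoot_single (D := cdSU hF m) (fdU hF m).wt_up
      (cdGU_short hF m) ⟨0, by omega⟩⟩
  · exact td (htSU hF m) (fdU hF m).wt_std (fdU hF m).wt_up (fdU hF m).wt_neg rfl
      (fun s => if_pos s) (fun s => if_neg s) (by omega) fun s => absurd (cdGU_short hF m) s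
  · exact LieS.nonempty_of_root _ ⟨_, CD.isRoot_sub (D := cdOdd F m (H58.two_ne_zero_of_odd_card o))
      (fdOdd F m).wt_up (H67.fin_zero_ne_one h)⟩
  · exact td ((isOrth_odd F m).htΩ _ _ _) (fdOdd F m).wt_std (fdOdd F m).wt_up (fdOdd F m).wt_neg rfl
      (fun s => if_pos s) (fun s => if_neg s) h fun s => absurd (Or.inr ⟨.inl (), rfl⟩) s
  · exact LieS.nonempty_of_root _ ⟨_, CD.isRoot_sub
      (D := cdPlus F m (H56.not_isExc_of_finrank (by simp; omega))) (fdPlus F m).wt_up
      (H67.fin_zero_ne_one (by omega))⟩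
  · exact td ((isOrth_plus F m).htΩ _ _ _) (fdPlus F m).wt_std (fdPlus F m).wt_up
      (fdPlus F m).wt_neg rfl (fun s => if_pos s) (fun s => if_neg s) (by omega) fun _ => h
  · exact LieS.nonempty_of_root _ ⟨_, CD.isRoot_sub (D := cdMinus m hab) (fdMinus m hab).wt_up
      (H67.fin_zero_ne_one h)⟩
  · exact td ((isOrth_minus m hab).htΩ _ _ _) (fdMinus m hab).wt_std (fdMinus m hab).wt_up
      (fdMinus m hab).wt_neg rfl (fun s => if_pos s) (fun s => if_neg s) h
      fun s => absurd (Or.inr ⟨.inr 0, rfl⟩) s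

end H54.CK
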