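import Cfsg.Agent.H91.CL3Spec

/-! CL3, job LSemi: the closure of a semilinear group is semilinear. -/

set_option autoImplicit false

namespace H54.CL3

open H91.CL

section

variable {K : Type} [Field K]

/-- An additive map which multiplies each element by an integer is an integer multiplication. -/
theorem eq_mul_of_int (k : K →+ K) (h : ∀ u, ∃ a : ℤ, k u = a • u) (u : K) : k u = u * k 1 := by
  obtain ⟨a, ha⟩ := h 1
  obtain ⟨b, hb⟩ := h u
  obtain ⟨c, hc⟩ := h (u + 1)
  rw [map_add, ha, hb] at hc
  simp only [zsmul_eq_mul, mul_one] at ha hb hc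
  by_cases e : ((c - b : ℤ) : K) = 0
  · push_cast at e
    rw [ha, hb]
    linear_combination (-u - u * u) * e - u * hc
  · have h1 : (c - b) • u = (a - c) • (1 : K) := by
      simp only [zsmul_eq_mul]; push_cast; linear_combination -hc
    have h2 := congrArg k h1
    rw [map_zsmul, map_zsmul] at h2
    simp only [zsmul_eq_mul, mul_one] at h1 h2
    apply mul_left_cancel₀ e
    rw [h2, ← h1, mul_assoc]

variable {V G H : Type} [AddCommGroup V] [Module K V] [Group G] [Group H] [DistribMulAction G V]
  [DistribMulAction H V]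

theorem semi_one [Finite K] (hS : JobSING) (pc : PC G H V) (sg : ∀ g : G, Semi K V g) {v₀ : V}
    (h0 : v₀ ≠ 0) (hv : ∀ v : V, ∃ c : K, v = c • v₀) (h : H) : Semi K V h := by
  choose co hco using hv
  have inj := smul_left_injective K h0
  let h' : K →+ K :=
    { toFun u := co (h • u • v₀)
      map_zero' := inj (by simp only [← hco, zero_smul, smul_zero])
      map_add' u v := inj (by simp only [add_smul, smul_add, ← hco]) }
  have hh : ∀ u : K, h • u • v₀ = h' u • v₀ := fun u => hco _
  have hi : Function.Injective h' := fun u v e =>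
    inj (MulAction.injective h (by simp only [hh, e]))
  obtain ⟨c, σ, hc⟩ := hS K h' hi fun u v => by
    obtain ⟨g, a, b, e1, e2⟩ := pc h (u • v₀) (v • v₀)
    obtain ⟨σ, hσ⟩ := sg g
    refine ⟨co (g • v₀), σ, a, b, inj ?_, inj ?_⟩
    · simp only [← hh, e1, hσ, smul_assoc, mul_comm (co _), mul_smul, ← hco]
    · simp only [← hh, e2, hσ, smul_assoc, mul_comm (co _), mul_smul, ← hco]
  have c0 : c ≠ 0 := by
    rintro rfl
    obtain ⟨a, e⟩ := hc 1
    exact one_ne_zero (hi (by rw [e, map_zero]; simp))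
  let k : K →+ K := σ.symm.toAddMonoidHom.comp ((AddMonoidHom.mulLeft c⁻¹).comp h')
  have hk : ∀ u, σ (k u) = c⁻¹ * h' u := fun u => σ.apply_symm_apply _
  have key : ∀ u, h' u = σ u * h' 1 := fun u => by
    have := congrArg σ (eq_mul_of_int k (fun u => (hc u).imp fun a e => σ.injective (by
      rw [hk, e, map_zsmul, mul_smul_comm, inv_mul_cancel_left₀ c0])) u)
    rw [map_mul, hk, hk, mul_left_comm] at this
    exact mul_left_cancel₀ (inv_ne_zero c0) this
  refine ⟨σ, fun a v => ?_⟩
  rw [hco v, smul_smul, hh, hh, key, key (co v), map_mul, smul_smul, mul_assoc]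

theorem exists_scal (pc : PC G H V) (sg : ∀ g : G, Semi K V g) (h : H) (l : K) (u : V) :
    ∃ s : K, h • l • u = s • h • u := by
  rcases eq_or_ne u 0 with rfl | hu
  · exact ⟨0, by simp⟩
  obtain ⟨g, a, b, e1, e2⟩ := pc h u (l • u)
  obtain ⟨σ, hσ⟩ := sg g
  rw [← Int.cast_smul_eq_zsmul K] at e1 e2
  have a0 : (a : K) ≠ 0 := fun e => hu ((smul_eq_zero_iff_eq h).1 (by rw [e1, e, zero_smul]))
  exact ⟨b * σ l * (a : K)⁻¹, by rw [e1, e2, hσ, smul_smul, smul_smul, inv_mul_cancel_right₀ a0]⟩

theorem scal_eq (pc : PC G H V) (sg : ∀ g : G, Semi K V g) (h : H) {l s : K} {u v : V}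
    (hu : u ≠ 0) (hv : ∀ c : K, v ≠ c • u) :
    h • l • u = s • h • u ↔ h • l • v = s • h • v := by
  obtain ⟨a, ha⟩ := exists_scal pc sg h l u
  obtain ⟨b, hb⟩ := exists_scal pc sg h l v
  obtain ⟨r, hr⟩ := exists_scal pc sg h l (u + v)
  rw [smul_add, smul_add, ha, hb, smul_add, smul_add] at hr
  have hu' : h • u ≠ 0 := (smul_ne_zero_iff_ne h).2 hu
  have hv' : h • v ≠ 0 := (smul_ne_zero_iff_ne h).2 fun e => hv 0 (by rw [e, zero_smul])
  have e1 : b = r := by
    by_contra e
    obtain ⟨c, hc⟩ := exists_scal pc sg h⁻¹ ((b - r)⁻¹ * (r - a)) (h • u)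
    refine hv c ?_
    rw [inv_smul_smul, inv_smul_eq_iff] at hc
    refine MulAction.injective h ?_
    change h • v = h • c • u
    rw [← hc, mul_smul, eq_inv_smul_iff₀ (sub_ne_zero.2 e)]
    generalize h • u = x at hr ⊢
    generalize h • v = y at hr ⊢
    linear_combination (norm := module) hr
  have e2 : a = r := smul_left_injective K hu' (by
    rw [e1] at hr
    exact add_right_cancel hr)
  rw [ha, hb, e1, e2]
  exact (smul_left_injective K hu').eq_iff.trans (smul_left_injective K hv').eq_iff.symm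

theorem semi_two [Finite K] (pc : PC G H V) (sg : ∀ g : G, Semi K V g) {u w : V} (hu : u ≠ 0)
    (hw : ∀ c : K, w ≠ c • u) (h : H) : Semi K V h := by
  choose s hs using fun l => exists_scal pc sg h l u
  have key : ∀ (l : K) (v : V), h • l • v = s l • h • v := fun l v => by
    by_cases hv : ∀ c : K, v ≠ c • u
    · exact (scal_eq pc sg h hu hv).1 (hs l)
    · push Not at hv
      obtain ⟨c, rfl⟩ := hv
      rcases eq_or_ne (c • u) 0 with e | e
      · simp [e]
      · exact (scal_eq pc sg h e fun d => by rw [smul_smul]; exact hw _).2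
          ((scal_eq pc sg h hu hw).1 (hs l))
  have inj := smul_left_injective K ((smul_ne_zero_iff_ne h).2 hu)
  let σ : K →+* K :=
    { toFun := s
      map_one' := inj (by simp only [← hs, one_smul])
      map_mul' a b := inj (by simp only [mul_smul, ← key])
      map_zero' := inj (by simp only [← hs, zero_smul, smul_zero])
      map_add' a b := inj (by simp only [add_smul, ← hs, smul_add]) }
  exact ⟨RingEquiv.ofBijective σ (Finite.injective_iff_bijective.1 σ.injective), key⟩

end

theorem jobLSemi (hS : JobSING) : JobLSemi := by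
  intro V G H _ _ _ _ _ _ _ _ _ pc K _ _ _ sg h
  rcases subsingleton_or_nontrivial V with _ | _
  · exact ⟨RingEquiv.refl K, fun _ _ => Subsingleton.elim _ _⟩
  obtain ⟨u, hu⟩ := exists_ne (0 : V)
  by_cases hv : ∀ v : V, ∃ c : K, v = c • u
  · exact semi_one hS pc sg hu hv h
  · push Not at hv
    obtain ⟨w, hw⟩ := hv
    exact semi_two pc sg hu hw h

end H54.CL3
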