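import Cfsg.Agent.H53.DGSpec2
import Cfsg.Agent.H53.MatED
import Cfsg.Agent.H28.CharProd
import Cfsg.Agent.H28.Degree

/-! Tower DG: Harish-Chandra induction of a non-real cuspidal character. -/

set_option autoImplicit false

namespace H54.DG

open Cfsg H28 H53.DG Matrix
open scoped ComplexConjugate

variable {F : Type} [Field F] {k : ℕ}

/-- The transpose of an invertible matrix. -/
def trG (a : GL (Fin k) F) : GL (Fin k) F :=
  ⟨a.1ᵀ, (a⁻¹).1ᵀ, by rw [← transpose_mul, Units.inv_mul, transpose_one],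
    by rw [← transpose_mul, Units.mul_inv, transpose_one]⟩

theorem isConj_trG (a : GL (Fin k) F) : IsConj a (trG a) := by
  obtain ⟨c, hc⟩ := H53.isConj_transpose a.1
  exact isConj_iff.2 ⟨c, mul_inv_eq_iff_eq_mul.2 (Units.ext hc)⟩

theorem ebz_mem {G : Type} [Group G] {H : Subgroup G} (θ : H → ℂ) {g : G} (h : g ∈ H) :
    extendByZero H θ g = θ ⟨g, h⟩ := Subtype.val_injective.extend_apply θ 0 ⟨g, h⟩

theorem ebz_not {G : Type} [Group G] {H : Subgroup G} (θ : H → ℂ) {g : G} (h : g ∉ H) :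
    extendByZero H θ g = 0 := Function.extend_apply' θ (0 : G → ℂ) g fun ⟨a, e⟩ => h (e ▸ a.2)

variable {V : Type} [AddCommGroup V] [Module F V] {S : FS F V}

theorem isL_unique {a : GL (Fin k) F} {h : S.I} {l l' : (S.ext k).I} (h1 : S.IsL k a h l)
    (h2 : S.IsL k a h l') : l = l' :=
  Subtype.ext (LinearEquiv.ext fun z => (h1 z.1 z.2.1 z.2.2).trans (h2 z.1 z.2.1 z.2.2).symm)

theorem w_conj {a : GL (Fin k) F} {h : S.I} {l l' w : (S.ext k).I} (hw : S.IsW k 1 w)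
    (h1 : S.IsL k a h l) (h2 : S.IsL k (trG a)⁻¹ h l') : w⁻¹ * l * w = l' := by
  rw [mul_assoc, inv_mul_eq_iff_eq_mul]
  refine Subtype.ext (LinearEquiv.ext fun ⟨x, v, y⟩ => ?_)
  change l.1 (w.1 (x, v, y)) = w.1 (l'.1 (x, v, y))
  rw [hw, h1, h2, hw]
  simp [trG, mulVec_smul]

theorem neg_isL : S.IsL k (-1) S.neg (S.ext k).neg := fun x v y => by
  simp [neg_mulVec]

theorem jobInd (mk : JobMK) (par : APar) (m1 : AM1) (m2 : AM2) : AInd := by
  classical
  intro F _ _ _ V _ _ _ S k σ τ hσ hτ hc hle hk hr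
  obtain ⟨⟨π, hπ⟩, hW, hL, -, -, hP⟩ := par F V S k
  obtain ⟨sur, pL, -, lev, dbl⟩ := hP π hπ
  obtain ⟨w, hw⟩ := hW 1
  choose L hL using hL
  have irr : IsIrrCharacter _ fun p : S.P k => σ (π p).1 * τ (π p).2 :=
    (hσ.prod hτ).comp_surjective π sur
  obtain ⟨k1, k2, k3, k4⟩ := mk _ _ _ irr
  have eL : ∀ a h, extendByZero (S.P k) (fun p => σ (π p).1 * τ (π p).2) (L a h) = σ a * τ h :=
    fun a h => by
      obtain ⟨e1, e2⟩ := pL a h _ (hL a h)
      rw [ebz_mem _ e1, e2]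
  have mw : MT (S.P k) (fun p => σ (π p).1 * τ (π p).2) w = 0 := by
    rw [MT, ← Fintype.sum_of_injective (fun d : GL (Fin k) F × S.I => L d.1 d.2) (fun d d' e => ?_)
      (fun d => σ d.1 * σ d.1 * (τ d.2 * conj (τ d.2))) _ (fun g hg => ?_) fun d => ?_,
      Fintype.sum_prod_type]
    · simp only [← Finset.mul_sum, ← Finset.sum_mul, hr, zero_mul]
    · obtain ⟨e1, e2⟩ := pL _ _ _ (hL d.1 d.2)
      obtain ⟨e3, e4⟩ := pL _ _ _ (hL d'.1 d'.2)
      exact e2.symm.trans ((congrArg π (Subtype.ext e)).trans e4)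
    · by_cases g1 : g ∈ S.P k
      · by_cases g2 : w⁻¹ * g * w ∈ S.P k
        · obtain ⟨a, h, e⟩ := lev 1 w hw g g1 g2
          exact (hg ⟨(a, h), isL_unique (hL a h) e⟩).elim
        · rw [ebz_not _ g2, map_zero, mul_zero]
      · rw [ebz_not _ g1, zero_mul]
    · rw [w_conj hw (hL _ _) (hL _ _), eL, eL, map_mul, ← hσ.isCharacter.apply_inv, inv_inv,
        ← hσ.isCharacter.isClassFunction.eq_of_isConj (isConj_trG d.1)]
      ring
  refine ⟨_, k2 fun x hx => ?_, by simpa using k3, fun h => ?_⟩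
  · by_cases c1 : ∀ z, (x.1 (z, 0, 0)).2.2 = 0 → z = 0
    · obtain ⟨p, hp, p', hp', rfl⟩ := (dbl 1 w hw x).2 c1
      rw [k1 p hp p' hp', mw]
    push Not at c1
    obtain ⟨z, z1, z2⟩ := c1
    by_cases c2 : (∃ z, z ≠ 0 ∧ (x.1 (z, 0, 0)).2 = 0) ∨ ∃ z, (x.1 (z, 0, 0)).2.2 ≠ 0
    · exact m1 F V S k π hπ σ τ hσ.isCharacter hτ.isCharacter hc x hx ⟨z, z2, z1⟩ c2
    · push Not at c2
      exact m2 F V S k π hπ σ τ hσ.isCharacter hτ.isCharacter hc hle hk x c2.2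
        fun z hz => by_contra fun e => c2.1 z e hz
  · obtain ⟨e1, e2⟩ := pL _ _ _ (neg_isL (S := S) (k := k))
    refine k4 ⟨_, e1⟩ (Subgroup.mem_center_iff.2 fun g => Subtype.ext (LinearEquiv.ext fun z => ?_))
      (by simpa [e2] using h) _ 0 ?_ isCharacter_zero (add_zero _).symm
    · exact map_neg g.1 z
    · exact irr.isCharacter.indFun

end H54.DG
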