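/- Tower E7T, job CJ: the configuration in the Hall–Janko group. -/
import Cfsg.Agent.H40.E7TSpec
import Cfsg.Agent.H4.Ico5

set_option autoImplicit false
set_option maxRecDepth 100000

namespace H54.E7T

open H40.E7S H40.E7T H49

theorem cfgJ_map {G H : Type*} [Group G] [Group H] (f : G →* H) (hf : Function.Injective f)
    (h : CfgJ G) : CfgJ H := by
  obtain ⟨a, b, c, y, z, w, k, h1, h2, h3, h4, h5, h6, h7, h8⟩ := h
  refine ⟨f a, f b, f c, f y, f z, f w, ⟨?_, fun i hi => ?_, ?_, k.zy.map f, k.zt.map f, ?_,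
    k.wz.map f, ?_⟩, ?_, ?_, h3.map f, h4.map f, f.map_isConj h5, ?_, ?_, ?_⟩
  · rw [orderOf_injective f hf, k.oz]
  · rw [← map_pow, ← map_mul, orderOf_injective f hf, k.oy i hi]
  · rw [orderOf_injective f hf, k.ot]
  · rw [← map_mul, ← map_pow, k.ty, map_one]
  · simp only [← map_mul, ← map_inv, k.wt]
  · rw [orderOf_injective f hf, h1]
  · simp only [← map_mul, h2]
  · exact map_mul f a b ▸ f.map_isConj h6
  · rw [← map_pow, ← map_mul]; exact f.map_isConj h7
  · rw [← map_mul, ← map_pow, h8, map_one]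

theorem ord_of {G : Type*} [Group G] {p : ℕ} (hp : p.Prime) {x : G} (h : x ^ p = 1 ∧ x ≠ 1) :
    orderOf x = p :=
  haveI := Fact.mk hp
  orderOf_eq_prime h.1 h.2

/-- a word in the generators of the model -/
noncomputable abbrev ww (l : List ℕ) : H4.M2.X := wd H4.M2.gens l

theorem cfgJ_X : CfgJ H4.M2.X := by
  refine ⟨ww [0, 7, 0], ww [2, 9, 0, 9, 0, 2, 9, 0, 9], ww [1],
    ww [0, 0, 6, 9, 0, 9, 0, 4, 6, 9, 0], ww [0, 9, 0, 9], ww [0, 9],
    ⟨ord_of (by norm_num) (by decide +kernel), fun i hi => ord_of (by norm_num) ?_,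
      ord_of (by norm_num) (by decide +kernel), ?_, ?_, by decide +kernel, ?_, by decide +kernel⟩,
    ord_of (by norm_num) (by decide +kernel), by decide +kernel, ?_, ?_,
    isConj_iff.2 ⟨ww [0, 3, 9, 0, 9], by decide +kernel⟩,
    isConj_iff.2 ⟨ww [7, 9, 0, 9, 0, 9, 0, 3], by decide +kernel⟩,
    isConj_iff.2 ⟨ww [9, 0, 9, 0, 2, 9, 0], by decide +kernel⟩, by decide +kernel⟩
  · revert i; decide +kernel
  all_goals exact (commute_iff_eq _ _).2 (by decide +kernel)

theorem jobCJ : JobCJ := by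
  obtain ⟨ψ, -⟩ := H4.Ico.exists_equiv
  exact cfgJ_map ψ.toMonoidHom ψ.injective cfgJ_X

end H54.E7T
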