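/- Tower E7T, job REP9: elements of order nine on the 56-dimensional module of `E₇(2)`. -/
import Cfsg.Agent.H40.E7TSpec
import Cfsg.Agent.H55.E7Rep

set_option autoImplicit false

namespace H54.E7T

open Matrix Cfsg.Lie H63 H65 H40.AS H26.E7 H40.E7S H40.E7T H55.E7S

attribute [local instance] tabE7 commE7

theorem diag9 (g : rep56.G (ZMod 2)) (hg : g ^ 9 = 1) : ∃ (ζ : Kb 2) (a : Fin 7 → ZMod 9)
    (u : GL (Fin 56) (Kb 2)) (d : Fin 56 → Kb 2), IsPrimitiveRoot ζ 9 ∧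
    (u * ext g * u⁻¹).val = diagonal d ∧
    ∀ (j : Fin 56) (m : ℕ), d j = ζ ^ m ↔ ∑ k, a k * (wt k j : ZMod 9) = m := by
  classical
  have he : ((9 : ℕ) : Kb 2) ≠ 0 := fun h => by
    rw [CharP.cast_eq_zero_iff (Kb 2) 2] at h
    exact absurd h (by norm_num)
  have : NeZero ((9 : ℕ) : Kb 2) := ⟨he⟩
  have h : ext g ^ 9 = 1 := by rw [← map_pow, hg, map_one]
  obtain ⟨φ, h1, h2', h3⟩ := exists_phi (F := Kb 2)
  obtain ⟨σ, hσ, -, -, halg⟩ := H67.exists_frobAut (ZMod 2)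
  obtain ⟨u, c, hc, hu⟩ := H67.exists_conj_tor_coprime (D := chevE7) (k := Kb 2) (N := 2)
    Fintype.one_lt_card hσ halg (fun d hd => H64.kerE7.pow_eq_one' hd) he (by norm_num)
    (s := φ (ext g)) (by rw [← map_pow, h, map_one])
  obtain ⟨u, rfl⟩ := h1 u
  obtain ⟨t, ht, ht'⟩ := h3 c
  obtain ⟨z, hz, h4⟩ := h2' (u * ext g * u⁻¹ * t⁻¹) (by
    simp only [map_mul, map_inv, hu, ht', mul_inv_cancel])
  have h5 : ((u : GL (Fin 56) (Kb 2)) * ext g * (u : GL (Fin 56) (Kb 2))⁻¹).val =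
      diagonal fun j : Fin 56 => ((z * ∏ k : Fin 7, c k ^ wt k j : (Kb 2)ˣ) : Kb 2) := by
    rw [show (u : GL (Fin 56) (Kb 2)) * ext g * (u : GL (Fin 56) (Kb 2))⁻¹ =
      ((u * ext g * u⁻¹ * t⁻¹ : rep56.G (Kb 2)) : GL (Fin 56) (Kb 2)) * t by simp, Units.val_mul, h4,
      ht, diagonal_mul_diagonal]
    congr 1; funext j
    rw [Units.val_mul]
    exact congrArg (fun y : (Kb 2)ˣ => (z : Kb 2) * y)
      (Finset.prod_congr rfl fun k _ => congrArg _ (rep_wt k j))
  have hck : ∀ k : Fin 7, c k ^ 9 = 1 := fun k => congrFun hc k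
  have hz1 : z = 1 := by
    have h6 : ((u : GL (Fin 56) (Kb 2)) * ext g * (u : GL (Fin 56) (Kb 2))⁻¹) ^ 9 = 1 := by
      rw [conj_pow, ← Subgroup.coe_pow, h]; simp
    have h7 := congrArg Units.val h6
    rw [Units.val_pow_eq_pow_val, h5, diagonal_pow] at h7
    replace h7 := congrFun (congrFun h7 0) 0
    rw [diagonal_apply_eq, Pi.pow_apply, ← Units.val_pow_eq_pow_val, mul_pow, ← Finset.prod_pow] at h7
    have h7' : ∀ (k : Fin 7) (m : ℤ), (c k ^ m) ^ 9 = 1 := fun k m => by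
      rw [← zpow_natCast, ← _root_.zpow_mul, mul_comm, _root_.zpow_mul, zpow_natCast, hck,
        _root_.one_zpow]
    simp only [h7', Finset.prod_const_one, mul_one] at h7
    have h8 : z ^ 9 = 1 := Units.ext (h7.trans (Matrix.one_apply_eq _))
    exact (pow_eq_one_iff_of_coprime (by norm_num)).1 ⟨h8, hz⟩
  obtain ⟨ζ, hζ⟩ := HasEnoughRootsOfUnity.exists_primitiveRoot (Kb 2) 9
  have hζ0 : ζ ≠ 0 := hζ.ne_zero (by norm_num)
  choose a _ ha using fun k : Fin 7 => hζ.eq_pow_of_pow_eq_one (ξ := (c k : Kb 2))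
    (by rw [← Units.val_pow_eq_pow_val, hck, Units.val_one])
  refine ⟨ζ, fun k => (a k : ZMod 9), u, _, hζ, h5, fun j m => ?_⟩
  have e : ((z * ∏ k : Fin 7, c k ^ wt k j : (Kb 2)ˣ) : Kb 2) = ζ ^ ∑ k, (a k : ℤ) * wt k j := by
    rw [hz1, one_mul, Units.coe_prod, Fin.prod_univ_seven, Fin.sum_univ_seven]
    simp only [Units.val_zpow_eq_zpow_val, ← ha, zpow_add₀ hζ0, _root_.zpow_mul, zpow_natCast]
  rw [e, ← zpow_natCast, ← div_eq_one_iff_eq (zpow_ne_zero _ hζ0), ← zpow_sub₀ hζ0,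
    hζ.zpow_eq_one_iff_dvd, ← ZMod.intCast_zmod_eq_zero_iff_dvd]
  push_cast
  rw [sub_eq_zero]

theorem rank_one (g : rep56.G (ZMod 2)) : ((ext g : GL (Fin 56) (Kb 2)).val - (1 : Kb 2) • 1).rank +
    dm (kf (toLin' (g : GL (Fin 56) (ZMod 2)).val)) = 56 := by
  have := dm_add (g : GL (Fin 56) (ZMod 2)).val
  rwa [← rank_map (algebraMap (ZMod 2) (Kb 2)), Matrix.map_sub _ (map_sub _),
    Matrix.map_one _ (map_zero _) (map_one _), ← ext_val, ← one_smul (Kb 2) (1 : Matrix _ _ _)] at this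

theorem rank_sq (g : rep56.G (ZMod 2)) (μ : Kb 2) :
    ((ext g : GL (Fin 56) (Kb 2)).val - μ ^ 2 • 1).rank =
      ((ext g : GL (Fin 56) (Kb 2)).val - μ • 1).rank := by
  rw [← rank_map (frobenius (Kb 2) 2) (_ - μ • 1)]
  congr 1
  ext i j
  rw [map_apply, Matrix.sub_apply, Matrix.sub_apply, map_sub, ext_val, map_apply, frobenius_def,
    frobenius_def, ← map_pow, ZMod.pow_card]
  by_cases e : i = j <;> simp [e]

theorem nine (hW : JobW9) (g : rep56.G (ZMod 2)) (hg : g ^ 9 = 1)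
    (h : kf (toLin' ((g ^ 3 : rep56.G (ZMod 2)) : GL (Fin 56) (ZMod 2)).val) ≤
      kf (toLin' (g : GL (Fin 56) (ZMod 2)).val)) : g = 1 := by
  classical
  obtain ⟨ζ, a, u, d, hζ, h5, h9⟩ := diag9 g hg
  have k : ∀ m : ℕ, ((ext g : GL (Fin 56) (Kb 2)).val - ζ ^ m • 1).rank + cn a m = 56 := fun m => by
    have := rank_add h5 (ζ ^ m)
    simp only [h9] at this
    exact this
  have h6 : (u * (ext (g ^ 3) : GL (Fin 56) (Kb 2)) * u⁻¹).val = diagonal fun j => d j ^ 3 := by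
    rw [map_pow, Subgroup.coe_pow, ← conj_pow, Units.val_pow_eq_pow_val, h5, diagonal_pow]
    rfl
  have k3 := rank_add h6 1
  have e0 := rank_one g
  have e3 := rank_one (g ^ 3)
  have le := Submodule.finrank_mono h
  have k0 := k 0
  have k1 := k 1
  have k2 := k 2
  have k4 := k 4
  have s1 := rank_sq g ζ
  have s2 := rank_sq g (ζ ^ 2)
  rw [← pow_mul, show 2 * 2 = 4 from rfl] at s2
  rw [pow_zero] at k0
  rw [pow_one] at k1
  simp only [Nat.cast_zero, Nat.cast_one, Nat.cast_ofNat] at k0 k1 k2 k4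
  have z : ∀ m : ℕ, m = 3 ∨ m = 6 → cn a m = 0 := fun m hm => by
    have dj : Disjoint (Finset.univ.filter fun j : Fin 56 => ∑ k, a k * (wt k j : ZMod 9) = 0)
        (Finset.univ.filter fun j : Fin 56 => ∑ k, a k * (wt k j : ZMod 9) = m) :=
      Finset.disjoint_filter.2 fun j _ e1 e2 => by
        rcases hm with rfl | rfl <;> exact absurd (e1.symm.trans e2) (by decide)
    have := Finset.card_le_card (show
      (Finset.univ.filter fun j : Fin 56 => ∑ k, a k * (wt k j : ZMod 9) = 0) ∪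
        (Finset.univ.filter fun j : Fin 56 => ∑ k, a k * (wt k j : ZMod 9) = m) ⊆
        Finset.univ.filter fun j => d j ^ 3 = 1 from
      Finset.union_subset (Finset.monotone_filter_right _ fun j _ e => by
        rw [(h9 j 0).2 (e.trans Nat.cast_zero.symm), pow_zero, one_pow])
      (Finset.monotone_filter_right _ fun j _ e => by
        rw [(h9 j m).2 e, ← pow_mul, hζ.pow_eq_one_iff_dvd]
        rcases hm with rfl | rfl <;> norm_num))
    rw [Finset.card_union_of_disjoint dj] at this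
    change cn a 0 + cn a m ≤ _ at this
    unfold dm at e0 e3
    omega
  have h56 := hW a (by omega) (by omega) (z 3 (.inl rfl)) (z 6 (.inr rfl))
  have h0 : kf (toLin' (g : GL (Fin 56) (ZMod 2)).val) = ⊤ :=
    Submodule.eq_top_of_finrank_eq (by rw [Module.finrank_fin_fun]; unfold dm at e0; omega)
  exact Subtype.ext (Units.ext (toLin'.injective (LinearMap.ext fun v =>
    (mem_kf.1 (Submodule.eq_top_iff'.1 h0 v)).trans (one_mulVec v).symm)))

theorem jobRep9 (hW : JobW) (h9 : JobW9) : JobRep9 := by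
  obtain ⟨φ⟩ := exists_equiv
  let ρ : Representation (ZMod 2) (chevE7.group (ZMod 2)) V56 :=
    (toLinAlgEquiv' (R := ZMod 2) (n := Fin 56)).toMonoidHom.comp ((Units.coeHom _).comp
      ((rep56.G (ZMod 2)).subtype.comp φ.symm.toMonoidHom))
  have hρ : ∀ g : rep56.G (ZMod 2), ρ (φ g) = toLin' (g : GL (Fin 56) (ZMod 2)).val := fun g => by
    simp only [ρ, MonoidHom.comp_apply, MulEquiv.coe_toMonoidHom, MulEquiv.symm_apply_apply]
    rfl
  have : Fact (Nat.Prime 5) := ⟨by norm_num⟩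
  have hφ : ∀ g, orderOf (φ g) = orderOf g := fun g => orderOf_injective φ.toMonoidHom φ.injective g
  refine ⟨ρ, ⟨fun g hg => ?_, fun g hg => ?_⟩, fun g hg h => ?_⟩
  · obtain ⟨g, rfl⟩ := φ.surjective g
    obtain ⟨a, h1, h2, h3⟩ := count (l := 5) (by norm_num) g (hφ g ▸ hg)
    have := hW.2 a h3
    rw [fd, hρ, h1]
    simp only [Finset.mem_insert, Finset.mem_singleton] at this
    omega
  · obtain ⟨g, rfl⟩ := φ.surjective g
    obtain ⟨a, h1, h2, -⟩ := count (l := 3) (by norm_num) g (hφ g ▸ hg)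
    have := hW.1 a
    rw [fd, hρ, h1]
    simp only [Finset.mem_insert, Finset.mem_singleton] at this
    omega
  · obtain ⟨g, rfl⟩ := φ.surjective g
    rw [← map_pow, hρ, hρ] at h
    rw [hφ] at hg
    rw [nine h9 g (hg ▸ pow_orderOf_eq_one g) h, orderOf_one] at hg
    exact absurd hg (by norm_num)

end H54.E7T
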