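/- ORE1: kit for the counting jobs R and P (pencil of two involutions). -/
import Cfsg.Agent.H56.OreSpec

set_option autoImplicit false

namespace H54.OreR

open Module QuadraticMap H56 H56.Ore

universe u

section lin
variable {F V : Type*} [Field F] [AddCommGroup V] [Module F V] {Q : QuadraticForm F V}

/-- The `e`-eigenspace of `s`. -/
def Ve (s : O Q) (e : F) : Submodule F V := LinearMap.ker (s.lin - e • LinearMap.id)

theorem mem_Ve {s : O Q} {e : F} {v : V} : v ∈ Ve s e ↔ s v = e • v := by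
  simp [Ve, sub_eq_zero]

theorem invol_apply {s : O Q} (hs : s * s = 1) (v : V) : s (s v) = v := by
  rw [← O.mul_apply, hs, O.one_apply]

theorem polar_invol {s : O Q} (hs : s * s = 1) (x y : V) : polar Q (s x) y = polar Q x (s y) := by
  rw [← s.map_polar x (s y), invol_apply hs]

theorem Ve_one (s : O Q) : Ve s 1 = s.fix := by
  ext v; rw [mem_Ve, O.mem_fix, one_smul]

theorem Ve_neg (h2 : (2 : F) ≠ 0) {s : O Q} (hs : s * s = 1) : Ve s (-1) = s.mov := by
  ext v
  rw [mem_Ve, O.mem_mov]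
  constructor
  · intro h
    refine ⟨-(2 : F)⁻¹ • v, ?_⟩
    rw [map_smul, h, smul_smul, ← sub_smul]
    have : -(2 : F)⁻¹ * -1 - -(2 : F)⁻¹ = 1 := by field_simp; ring
    rw [this, one_smul]
  · rintro ⟨y, rfl⟩
    rw [map_sub, invol_apply hs, neg_smul, one_smul, neg_sub]

/-- `Q'(v) = B(v, s v) - B(v, t v)`. -/
def pen (s t : O Q) : QuadraticForm F V :=
  LinearMap.BilinMap.toQuadraticMap (Q.polarBilin.compl₂ (s.lin - t.lin))

theorem pen_apply (s t : O Q) (v : V) : pen s t v = polar Q v (s v) - polar Q v (t v) := by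
  simp [pen, polar_sub_right]

/-- The operator `2 (s - t) - μ`. -/
def opE (s t : O Q) (μ : F) : End F V := (2 : F) • (s.lin - t.lin) - μ • LinearMap.id

theorem opE_apply (s t : O Q) (μ : F) (v : V) :
    opE s t μ v = (2 : F) • (s v - t v) - μ • v := by
  simp [opE]

theorem polar_pen {s t : O Q} (hs : s * s = 1) (ht : t * t = 1) (μ : F) (x y : V) :
    polar (pen s t - μ • Q) x y = polar Q (opE s t μ x) y := by
  have h : polar (pen s t - μ • Q) x y = polar (pen s t) x y - μ * polar Q x y := by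
    simp only [polar, sub_apply, smul_apply, smul_eq_mul]; ring
  have h' : polar (pen s t) x y = polar Q x (s y - t y) + polar Q y (s x - t x) := by
    rw [pen, LinearMap.BilinMap.polar_toQuadraticMap]; simp
  rw [h, h', opE_apply, polar_sub_left, polar_smul_left, polar_smul_left, polar_comm Q y,
    polar_sub_right, polar_sub_left, polar_invol hs, polar_invol ht, smul_eq_mul, smul_eq_mul]
  ring

theorem disj_aux {s : O Q} (hs : s * s = 1) {v : V} {e μ : F} (he : e * e = 1)
    (hμ : μ ≠ 0) (hμe : μ ≠ 4 * e) (h : (2 : F) • s v = (2 * e - μ) • v) : v = 0 := by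
  have h1 : (2 : F) • v = (2 * e - μ) • s v := by
    have := congrArg s h
    rwa [map_smul, map_smul, invol_apply hs] at this
  have h3 : (μ * (μ - 4 * e)) • v = 0 := by
    have h4 : (2 * 2 : F) • v = ((2 * e - μ) * (2 * e - μ)) • v := by
      rw [mul_smul, h1, smul_comm, h, smul_smul]
    have : μ * (μ - 4 * e) = (2 * e - μ) * (2 * e - μ) - 2 * 2 := by linear_combination (-4) * he
    rw [this, sub_smul, ← h4, sub_self]
  exact (smul_eq_zero.1 h3).resolve_left (mul_ne_zero hμ (sub_ne_zero.2 hμe))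

theorem disj_s {s t : O Q} (ht : t * t = 1) {e μ : F} (he : e * e = 1)
    (hμ : μ ≠ 0) (hμe : μ ≠ 4 * e) : Disjoint (LinearMap.ker (opE s t μ)) (Ve s e) := by
  rw [Submodule.disjoint_def]
  intro v hv hs
  rw [LinearMap.mem_ker, opE_apply] at hv
  rw [mem_Ve] at hs
  refine disj_aux ht he hμ hμe ?_
  rw [hs] at hv
  linear_combination (norm := module) -hv

theorem disj_t {s t : O Q} (hs : s * s = 1) {e μ : F} (he : e * e = 1)
    (hμ : μ ≠ 0) (hμe : μ ≠ 4 * e) : Disjoint (LinearMap.ker (opE s t μ)) (Ve t (-e)) := by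
  rw [Submodule.disjoint_def]
  intro v hv ht
  rw [LinearMap.mem_ker, opE_apply] at hv
  rw [mem_Ve] at ht
  refine disj_aux (e := -e) (μ := -μ) hs (by linear_combination he) (neg_ne_zero.2 hμ)
    (fun h => hμe (by linear_combination -h)) ?_
  rw [ht] at hv
  linear_combination (norm := module) hv

theorem ker_opE_zero (h2 : (2 : F) ≠ 0) {s : O Q} (hs : s * s = 1) (t : O Q) :
    LinearMap.ker (opE s t 0) = (s * t).fix := by
  ext v
  rw [LinearMap.mem_ker, opE_apply, zero_smul, sub_zero, smul_eq_zero, or_iff_right h2,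
    sub_eq_zero, O.mem_fix, O.mul_apply]
  constructor
  · intro h; rw [← h, invol_apply hs]
  · intro h; rw [← s.apply_inj, invol_apply hs, h]

theorem rad_Ve (hQ : Q.polarBilin.Nondegenerate) (h2 : (2 : F) ≠ 0) {s : O Q} (hs : s * s = 1)
    {e : F} (he : e * e = 1) {u : V} (hu : u ∈ Ve s e) (h : ∀ w ∈ Ve s e, polar Q u w = 0) :
    u = 0 := by
  refine eq_zero_of_polar hQ fun x => ?_
  have h1 := h (x + e • s x) (by
    rw [mem_Ve, map_add, map_smul, invol_apply hs, smul_add, smul_smul, he, one_smul, add_comm])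
  rw [polar_add_right, polar_smul_right, ← polar_invol hs, mem_Ve.1 hu, polar_smul_left,
    smul_smul, he, one_smul, ← two_mul] at h1
  exact (mul_eq_zero.1 h1).resolve_left h2

variable [FiniteDimensional F V]

theorem finrank_Ve_one (s : O Q) : s.rk + finrank F (Ve s 1) = finrank F V := by
  rw [Ve_one]; exact s.rk_add_finrank_fix

omit [FiniteDimensional F V] in
theorem finrank_Ve_neg (h2 : (2 : F) ≠ 0) {s : O Q} (hs : s * s = 1) :
    finrank F (Ve s (-1)) = s.rk := by
  rw [Ve_neg h2 hs]; rfl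

theorem finrank_disj {A B : Submodule F V} (h : Disjoint A B) :
    finrank F A + finrank F B ≤ finrank F V := by
  rw [← Submodule.finrank_sup_add_finrank_inf_eq, h.eq_bot, finrank_bot, add_zero]
  exact Submodule.finrank_le _

/-- `d_μ ≤ min (k, n - k)` for `μ ≠ 0`. -/
theorem finrank_ker_opE (h2 : (2 : F) ≠ 0) {s t : O Q} (hs : s * s = 1) (ht : t * t = 1)
    (hk : s.rk = t.rk) {μ : F} (hμ : μ ≠ 0) :
    finrank F (LinearMap.ker (opE s t μ)) ≤ s.rk ∧
      finrank F (LinearMap.ker (opE s t μ)) + s.rk ≤ finrank F V := by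
  have a1 := finrank_Ve_one s
  have a2 := finrank_Ve_one t
  have a3 := finrank_Ve_neg h2 hs
  have a4 := finrank_Ve_neg h2 ht
  by_cases h : μ = 4 * -1
  · have h' : μ ≠ 4 * 1 := fun h' => by
      have : (2 : F) * 2 * 2 = 0 := by linear_combination h - h'
      simp [h2] at this
    have b1 := finrank_disj (disj_s (s := s) ht (one_mul 1) hμ h')
    have b2 := finrank_disj (disj_t (t := t) hs (one_mul 1) hμ h')
    omega
  · have b1 := finrank_disj (disj_s (s := s) ht (e := -1) (by ring) hμ h)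
    have b2 := finrank_disj (disj_t (t := t) hs (e := -1) (by ring) hμ h)
    rw [neg_neg] at b2
    omega

theorem finrank_comap_le (T : End F V) (P : Submodule F V) :
    finrank F (P.comap T) ≤ finrank F (LinearMap.ker T) + finrank F P := by
  have h := (T.domRestrict (P.comap T)).finrank_range_add_finrank_ker
  have h1 : finrank F (LinearMap.range (T.domRestrict (P.comap T))) ≤ finrank F P :=
    Submodule.finrank_mono (by rintro _ ⟨x, rfl⟩; exact x.2)
  have h2 : finrank F (LinearMap.ker (T.domRestrict (P.comap T))) ≤ finrank F (LinearMap.ker T) := by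
    rw [← Submodule.finrank_map_subtype_eq]
    exact Submodule.finrank_mono (by rintro _ ⟨x, hx, rfl⟩; exact hx)
  omega

theorem rd_comp_le (φ : QuadraticForm F V) (T : End F V)
    (h : ∀ x y, polar φ x y = polar Q (T x) y) (H : Submodule F V) :
    rd (φ.comp H.subtype) ≤ finrank F (LinearMap.ker T) + finrank F (perp Q H) := by
  refine le_trans ?_ (finrank_comap_le T (perp Q H))
  rw [rd, ← Submodule.finrank_map_subtype_eq]
  refine Submodule.finrank_mono ?_
  rintro _ ⟨x, hx, rfl⟩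
  refine mem_perp'.2 fun w hw => ?_
  have := LinearMap.congr_fun (LinearMap.mem_ker.1 hx) ⟨w, hw⟩
  rw [← h]
  simpa [polar] using this

theorem rd_le (hQ : Q.polarBilin.Nondegenerate) (φ : QuadraticForm F V) (T : End F V)
    (h : ∀ x y, polar φ x y = polar Q (T x) y) : rd φ ≤ finrank F (LinearMap.ker T) := by
  refine Submodule.finrank_mono fun x hx => eq_zero_of_polar hQ fun y => ?_
  rw [← h]
  simpa using LinearMap.congr_fun (LinearMap.mem_ker.1 hx) y

omit [FiniteDimensional F V] in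
theorem rd_eq_zero (hQ : Q.polarBilin.Nondegenerate) : rd Q = 0 := by
  have : LinearMap.ker Q.polarBilin = ⊥ := eq_bot_iff.2 fun x hx =>
    eq_zero_of_polar hQ fun y => by simpa using LinearMap.congr_fun (LinearMap.mem_ker.1 hx) y
  rw [rd, this, finrank_bot]

omit [FiniteDimensional F V] in
theorem rd_Ve (hQ : Q.polarBilin.Nondegenerate) (h2 : (2 : F) ≠ 0) {s : O Q} (hs : s * s = 1)
    {e : F} (he : e * e = 1) : rd (Q.comp (Ve s e).subtype) = 0 :=
  rd_eq_zero (nondegenerate_of_polar fun x hx => Subtype.ext (rad_Ve hQ h2 hs he x.2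
    fun w hw => by simpa [polar] using hx ⟨w, hw⟩))

end lin

section cnt
variable {F V : Type u} [Field F] [Fintype F] [AddCommGroup V] [Module F V] [FiniteDimensional F V]
  {Q : QuadraticForm F V}

theorem cnt_sub (h1 : JobCnt1.{u}) (h2 : (2 : F) ≠ 0) (W : Submodule F V)
    (hW : rd (Q.comp W.subtype) = 0) (c : F) {r : ℝ} (hr0 : 0 ≤ r) (hr : r ^ 2 = Fintype.card F) :
    r ^ 2 * ({v | v ∈ W ∧ Q v = c}.ncard : ℝ) ≤
      r ^ (2 * finrank F W) + (r ^ 2 - 1) * r ^ finrank F W := by
  have h := h1 (Q.comp W.subtype) c r h2 hr0 hr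
  rw [hW, add_zero] at h
  have e : {v | v ∈ W ∧ Q v = c}.ncard = Nat.card {v : W // Q.comp W.subtype v = c} := by
    rw [← Nat.card_coe_set_eq]
    exact Nat.card_congr ⟨fun v => ⟨⟨v.1, v.2.1⟩, v.2.2⟩, fun v => ⟨v.1.1, v.1.2, v.2⟩,
      fun _ => rfl, fun _ => rfl⟩
  rwa [e]

theorem three_le_card (h2 : (2 : F) ≠ 0) : 3 ≤ Fintype.card F := by
  classical
  have : ({0, 1, -1} : Finset F).card = 3 := by
    rw [Finset.card_eq_three]
    exact ⟨0, 1, -1, zero_ne_one, by simp, fun h => h2 (by linear_combination h), rfl⟩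
  rw [← this]
  exact Finset.card_le_univ _

omit [Field F] in
theorem sum_pow_le {r : ℝ} (hr1 : 1 ≤ r) (hr : r ^ 2 = Fintype.card F) (d : F → ℕ) {D : ℕ}
    (h : ∀ μ, d μ ≤ D) : ∑ μ, r ^ d μ ≤ r ^ 2 * r ^ D := by
  have := Finset.sum_le_card_nsmul Finset.univ (fun μ => r ^ d μ) (r ^ D)
    fun μ _ => pow_le_pow_right₀ hr1 (h μ)
  rwa [Finset.card_univ, nsmul_eq_mul, ← hr] at this

omit [Field F] in
theorem sum_pow_le' {r : ℝ} (hr1 : 1 ≤ r) (hr : r ^ 2 = Fintype.card F) (d : F → ℕ) {D D' : ℕ}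
    (h : ∀ μ, d μ ≤ D) {ν : F} (h' : d ν ≤ D') :
    ∑ μ, r ^ d μ ≤ r ^ D' + (r ^ 2 - 1) * r ^ D := by
  classical
  rw [← Finset.add_sum_erase _ _ (Finset.mem_univ ν)]
  have := Finset.sum_le_card_nsmul (Finset.univ.erase ν) (fun μ => r ^ d μ) (r ^ D)
    fun μ _ => pow_le_pow_right₀ hr1 (h μ)
  rw [Finset.card_erase_of_mem (Finset.mem_univ ν), Finset.card_univ, nsmul_eq_mul,
    Nat.cast_pred (Fintype.card_pos_iff.2 ⟨ν⟩), ← hr] at this
  exact add_le_add (pow_le_pow_right₀ hr1 h') this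

end cnt

end H54.OreR
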