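/- ORE1, job R: a generic vector on the pencil of two involutions. -/
import Cfsg.Agent.H54.OreRK

set_option autoImplicit false

namespace H54.OreR

open Module QuadraticMap H56 H56.Ore

universe u

theorem num7 {r : ℝ} (hr0 : 0 ≤ r) (hr : 3 ≤ r ^ 2) :
    r ^ 2 * (2 * (r ^ 6 + (r ^ 2 - 1) * r ^ 3) + 2 * (r ^ 8 + (r ^ 2 - 1) * r ^ 4)) <
      r ^ 14 - (r ^ 2 - 1) * (r ^ 7 + (r ^ 9 + (r ^ 2 - 1) * r ^ 10)) := by
  have h1 : (1.732 : ℝ) ≤ r := by nlinarith
  obtain ⟨y, hy0, hy⟩ : ∃ y, 0 ≤ y ∧ r ^ 2 = 3 + y := ⟨r ^ 2 - 3, by linarith, by ring⟩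
  have h2 : 0 ≤ 2 * (3 + y) ^ 3 - 3 * (3 + y) ^ 2 - 4 * (3 + y) + 2 := by
    have : 2 * (3 + y) ^ 3 - 3 * (3 + y) ^ 2 - 4 * (3 + y) + 2 =
      2 * y ^ 3 + 15 * y ^ 2 + 32 * y + 17 := by ring
    rw [this]; positivity
  have h3 : 0 < r * (2 * (3 + y) ^ 3 - 3 * (3 + y) ^ 2 - 4 * (3 + y) + 2) -
      ((3 + y) ^ 3 + (3 + y) - 2) := by
    have h4 := mul_le_mul_of_nonneg_right h1 h2
    have h5 : 0 ≤ y ^ 2 := by positivity
    have h6 : 0 ≤ y ^ 3 := by positivity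
    nlinarith
  rw [← hy] at h3
  have h7 : 0 < r ^ 5 := by positivity
  nlinarith [mul_pos h7 h3]

theorem num8 {r : ℝ} (hr0 : 0 ≤ r) (hr : 3 ≤ r ^ 2) :
    r ^ 2 * (2 * (r ^ 6 + (r ^ 2 - 1) * r ^ 3) + 2 * (r ^ 10 + (r ^ 2 - 1) * r ^ 5)) <
      r ^ 14 - (r ^ 2 - 1) * r ^ 8 ∧
    r ^ 2 * (2 * (r ^ 8 + (r ^ 2 - 1) * r ^ 4) + 2 * (r ^ 8 + (r ^ 2 - 1) * r ^ 4)) <
      r ^ 14 - (r ^ 2 - 1) * r ^ 8 := by
  have h1 : (1.7 : ℝ) ≤ r := by nlinarith
  have p : ∀ n : ℕ, 3 * r ^ n ≤ r ^ (n + 2) := fun n => by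
    rw [pow_add, mul_comm]; exact mul_le_mul_of_nonneg_left hr (by positivity)
  have p' : ∀ n : ℕ, 1.7 * r ^ n ≤ r ^ (n + 1) := fun n => by
    rw [pow_succ, mul_comm]; exact mul_le_mul_of_nonneg_left h1 (by positivity)
  have a1 := p 12
  have a2 := p 10
  have a3 := p' 9
  have a4 := p' 8
  have a5 : 0 < r ^ 5 := by positivity
  have a6 : 0 < r ^ 6 := by positivity
  have a8 : 0 < r ^ 8 := by positivity
  constructor <;> nlinarith

theorem num9 {r : ℝ} (hr0 : 0 ≤ r) (hr : 3 ≤ r ^ 2) {n a : ℕ} (hn : 9 ≤ n) (ha : a + 4 ≤ n) :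
    4 * (r ^ 2 * (r ^ (2 * a) + (r ^ 2 - 1) * r ^ a)) <
      r ^ (2 * n - 2) - (r ^ 2 - 1) * r ^ n := by
  have h1 : (1 : ℝ) ≤ r := by nlinarith
  have hp : 0 < r := by linarith
  have e1 : r ^ 2 * r ^ (2 * a) ≤ r ^ (2 * n - 6) := by
    rw [← pow_add]; exact pow_le_pow_right₀ h1 (by omega)
  have e2 : r ^ 2 * (r ^ 2 * r ^ a) ≤ r ^ (2 * n - 6) := by
    rw [← pow_add, ← pow_add]; exact pow_le_pow_right₀ h1 (by omega)
  have e3 : r ^ 2 * r ^ n ≤ r ^ (2 * n - 6) := by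
    rw [← pow_add]; exact pow_le_pow_right₀ h1 (by omega)
  have e4 : 9 * r ^ (2 * n - 6) ≤ r ^ (2 * n - 2) := by
    rw [show 2 * n - 2 = 4 + (2 * n - 6) by omega, pow_add]
    exact mul_le_mul_of_nonneg_right (by nlinarith) (by positivity)
  have e5 : 0 < r ^ n := by positivity
  have e6 : 0 ≤ r ^ 2 * r ^ a := by positivity
  nlinarith

theorem three_ind {F V : Type*} [Field F] [AddCommGroup V] [Module F V] [FiniteDimensional F V]
    {Q : QuadraticForm F V} (h2 : (2 : F) ≠ 0) (s t : O Q) :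
    finrank F (LinearMap.ker (opE s t 0)) + finrank F (LinearMap.ker (opE s t 1)) +
      finrank F (LinearMap.ker (opE s t (-1))) ≤ finrank F V := by
  have h01 : Disjoint (LinearMap.ker (opE s t 0)) (LinearMap.ker (opE s t 1)) := by
    rw [Submodule.disjoint_def]
    intro v h h'
    rw [LinearMap.mem_ker, opE_apply] at h h'
    linear_combination (norm := module) h - h'
  have h3 : Disjoint (LinearMap.ker (opE s t 0) ⊔ LinearMap.ker (opE s t 1))
      (LinearMap.ker (opE s t (-1))) := by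
    rw [Submodule.disjoint_def]
    intro v h h'
    obtain ⟨a, ha, b, hb, rfl⟩ := Submodule.mem_sup.1 h
    rw [LinearMap.mem_ker, opE_apply] at ha hb h'
    rw [map_add, map_add] at h'
    have e : a = -((2 : F) • b) := by linear_combination (norm := module) h' - ha - hb
    have hb0 : b = 0 := by
      have : (2 : F) • b ∈ LinearMap.ker (opE s t 0) := by
        rw [← neg_mem_iff, ← e, LinearMap.mem_ker, opE_apply, ha]
      exact (smul_eq_zero.1 (Submodule.disjoint_def.1 h01 _ this (Submodule.smul_mem _ _ (by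
        rw [LinearMap.mem_ker, opE_apply, hb])))).resolve_left h2
    rw [e, hb0]; simp
  have := finrank_disj h3
  rw [← Submodule.finrank_sup_add_finrank_inf_eq, h01.eq_bot, finrank_bot]
  omega

theorem jobR (h1 : JobCnt1.{u}) (hc : JobCnt2.{u}) : JobR.{u} := by
  intro F V _ _ _ _ _ Q hQ h2 s t c hs ht hk hn hk1 hk2 hfix
  by_contra hne
  have := Module.finite_of_finite F (M := V)
  set r : ℝ := √(Fintype.card F) with hrdef
  have hr0 : 0 ≤ r := Real.sqrt_nonneg _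
  have hr : r ^ 2 = Fintype.card F := Real.sq_sqrt (by positivity)
  have hr3 : 3 ≤ r ^ 2 := by rw [hr]; exact_mod_cast three_le_card h2
  have hr1 : 1 ≤ r := by nlinarith
  have low := hc Q (pen s t) c r h2 hr0 hr
  rw [rd_eq_zero hQ, add_zero] at low
  have sub : {v | Q v = c ∧ pen s t v = 0} ⊆
      ({v | v ∈ Ve s 1 ∧ Q v = c} ∪ {v | v ∈ Ve s (-1) ∧ Q v = c}) ∪
      ({v | v ∈ Ve t 1 ∧ Q v = c} ∪ {v | v ∈ Ve t (-1) ∧ Q v = c}) := by
    rintro v ⟨hv, hv'⟩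
    rw [pen_apply, sub_eq_zero] at hv'
    by_contra hcon
    simp only [Set.mem_union, Set.mem_ofPred_eq, mem_Ve, hv, and_true, one_smul, neg_smul,
      not_or] at hcon
    exact hne ⟨v, hv, hv', hcon.1.1, hcon.1.2, hcon.2.1, hcon.2.2⟩
  have up : (Nat.card {v : V // Q v = c ∧ pen s t v = 0} : ℝ) ≤
      ({v | v ∈ Ve s 1 ∧ Q v = c}.ncard + {v | v ∈ Ve s (-1) ∧ Q v = c}.ncard) +
      ({v | v ∈ Ve t 1 ∧ Q v = c}.ncard + {v | v ∈ Ve t (-1) ∧ Q v = c}.ncard) := by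
    have := (Set.ncard_le_ncard sub).trans ((Set.ncard_union_le _ _).trans
      (add_le_add (Set.ncard_union_le _ _) (Set.ncard_union_le _ _)))
    exact_mod_cast this
  have c1 := cnt_sub h1 h2 _ (rd_Ve hQ h2 hs (one_mul 1)) c hr0 hr
  have c2 := cnt_sub h1 h2 _ (rd_Ve hQ h2 hs (e := -1) (by ring)) c hr0 hr
  have c3 := cnt_sub h1 h2 _ (rd_Ve hQ h2 ht (one_mul 1)) c hr0 hr
  have c4 := cnt_sub h1 h2 _ (rd_Ve hQ h2 ht (e := -1) (by ring)) c hr0 hr
  have d1 := finrank_Ve_one s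
  have d3 : finrank F (Ve t 1) = finrank F (Ve s 1) := by have := finrank_Ve_one t; omega
  rw [finrank_Ve_neg h2 hs] at c2
  rw [finrank_Ve_neg h2 ht, ← hk] at c4
  rw [d3] at c3
  set n := finrank F V
  set k := s.rk
  set l := finrank F (Ve s 1)
  have tot : r ^ 4 * (Nat.card {v : V // Q v = c ∧ pen s t v = 0} : ℝ) ≤
      r ^ 2 * (2 * (r ^ (2 * k) + (r ^ 2 - 1) * r ^ k) + 2 * (r ^ (2 * l) + (r ^ 2 - 1) * r ^ l)) := by
    have h4 : r ^ 4 = r ^ 2 * r ^ 2 := by ring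
    rw [h4, mul_assoc]
    refine mul_le_mul_of_nonneg_left ?_ (by positivity)
    have := mul_le_mul_of_nonneg_left up (show 0 ≤ r ^ 2 by positivity)
    linarith
  have hd : ∀ μ, rd (pen s t - μ • Q) ≤ finrank F (LinearMap.ker (opE s t μ)) := fun μ =>
    rd_le hQ _ _ (polar_pen hs ht μ)
  have hd0 : finrank F (LinearMap.ker (opE s t 0)) = finrank F (s * t).fix := by
    rw [ker_opE_zero h2 hs]
  have hpar : Even (s * t).rk := by
    rw [← dickson_eq_one_iff hQ, map_mul, dickson_apply, dickson_apply, ← hk, ← pow_add,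
      ← two_mul, pow_mul]
    simp
  have hfx := (s * t).rk_add_finrank_fix
  obtain ⟨p, hp⟩ := hpar
  have hr2 : 0 ≤ r ^ 2 - 1 := by linarith
  by_cases h7 : n = 7
  · have hall : ∀ μ, finrank F (LinearMap.ker (opE s t μ)) ≤ 3 := fun μ => by
      by_cases hμ : μ = 0
      · rw [hμ]; omega
      · have := finrank_ker_opE h2 hs ht hk hμ; omega
    obtain ⟨ν, hν⟩ : ∃ ν, finrank F (LinearMap.ker (opE s t ν)) ≤ 2 := by
      by_contra hcon
      push Not at hcon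
      have := three_ind h2 s t
      have := hcon 0
      have := hcon 1
      have := hcon (-1)
      omega
    have hS := sum_pow_le' hr1 hr (fun μ => n + rd (pen s t - μ • Q)) (D := 10) (D' := 9)
      (fun μ => by have := hd μ; have := hall μ; omega) (ν := ν) (by have := hd ν; omega)
    have hS' := mul_le_mul_of_nonneg_left hS hr2
    have := num7 hr0 hr3
    rw [h7] at low hS'
    rcases (show k = 3 ∧ l = 4 ∨ k = 4 ∧ l = 3 by omega) with ⟨e1, e2⟩ | ⟨e1, e2⟩ <;>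
      rw [e1, e2] at tot <;> norm_num at low tot hS' <;> nlinarith
  have hall : ∀ μ, finrank F (LinearMap.ker (opE s t μ)) + 4 ≤ n := fun μ => by
    by_cases hμ : μ = 0
    · rw [hμ]; omega
    · have := finrank_ker_opE h2 hs ht hk hμ; omega
  have hS := sum_pow_le hr1 hr (fun μ => n + rd (pen s t - μ • Q)) (D := 2 * n - 4)
    (fun μ => by have := hd μ; have := hall μ; omega)
  have hS' := mul_le_mul_of_nonneg_left hS hr2
  have e1 : r ^ 2 * r ^ (2 * n - 4) = r ^ (2 * n - 2) := by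
    rw [← pow_add]; congr 1; omega
  have e2 : r ^ 2 * r ^ (2 * n - 2) = r ^ (2 * n) := by
    rw [← pow_add]; congr 1; omega
  rw [e1] at hS'
  have low' : r ^ (2 * n - 2) - (r ^ 2 - 1) * r ^ n ≤
      r ^ 4 * (Nat.card {v : V // Q v = c ∧ pen s t v = 0} : ℝ) := by linarith
  by_cases h8 : n = 8
  · have := num8 hr0 hr3
    rw [h8] at low'
    rcases (show k = 3 ∧ l = 5 ∨ k = 4 ∧ l = 4 ∨ k = 5 ∧ l = 3 by omega) with
      ⟨e1, e2⟩ | ⟨e1, e2⟩ | ⟨e1, e2⟩ <;> rw [e1, e2] at tot <;> norm_num at low' tot <;>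
      linarith [this.1, this.2]
  have f1 := num9 hr0 hr3 (n := n) (a := k) (by omega) (by omega)
  have f2 := num9 hr0 hr3 (n := n) (a := l) (by omega) (by omega)
  linarith

end H54.OreR
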