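import Cfsg.Agent.H11.SimDSpec

/-! # S3694 (tower SIM), chapter D: the slot `DLa`. -/

set_option autoImplicit false

namespace H54.SimDLa

open Subgroup Cfsg H98 Matrix H0.Sim H11.SimD

variable {n : ℕ} {F : Type} [Field F]

/-- the dot product as a bilinear form -/
noncomputable def dB (n : ℕ) (F : Type) [Field F] : LinearMap.BilinForm F (Fin n → F) :=
  LinearMap.mk₂ F (fun x y => x ⬝ᵥ y) (fun a b c => add_dotProduct a b c)
    (fun c a b => smul_dotProduct c a b) (fun a b c => dotProduct_add a b c)
    (fun c a b => dotProduct_smul c a b)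

theorem dB_apply (x y : Fin n → F) : dB n F x y = x ⬝ᵥ y := rfl

theorem dB_refl : (dB n F).IsRefl := fun x y h => by
  rw [dB_apply] at h ⊢
  rw [dotProduct_comm]; exact h

theorem dB_top : (dB n F).orthogonal ⊤ = ⊥ := by
  refine (Submodule.eq_bot_iff _).2 fun v hv => ?_
  funext i
  have h := hv (Pi.single i 1) Submodule.mem_top
  have h' : (Pi.single i (1 : F)) ⬝ᵥ v = 0 := h
  simpa using h'

/-- the image of `U` under the field automorphism -/
def sg (σ : F ≃+* F) (U : Submodule F (Fin n → F)) : Submodule F (Fin n → F) where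
  carrier := {v | (fun i => σ.symm (v i)) ∈ U}
  add_mem' := fun {a b} ha hb => by
    have h := U.add_mem ha hb
    have e : (fun i => σ.symm ((a + b) i)) = (fun i => σ.symm (a i)) + fun i => σ.symm (b i) := by
      ext i; simp
    show (fun i => σ.symm ((a + b) i)) ∈ U
    rw [e]; exact h
  zero_mem' := by
    have e : (fun i => σ.symm ((0 : Fin n → F) i)) = 0 := by ext i; simp
    show (fun i => σ.symm ((0 : Fin n → F) i)) ∈ U
    rw [e]; exact U.zero_mem
  smul_mem' := fun c v hv => by
    have h := U.smul_mem (σ.symm c) hv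
    have e : (fun i => σ.symm ((c • v) i)) = σ.symm c • fun i => σ.symm (v i) := by
      ext i; simp
    show (fun i => σ.symm ((c • v) i)) ∈ U
    rw [e]; exact h

theorem mem_sg {σ : F ≃+* F} {U : Submodule F (Fin n → F)} {v : Fin n → F} :
    v ∈ sg σ U ↔ (fun i => σ.symm (v i)) ∈ U := Iff.rfl

/-- the bijection `σ U ≃ U` -/
def sgEquiv (σ : F ≃+* F) (U : Submodule F (Fin n → F)) : sg σ U ≃ U where
  toFun v := ⟨fun i => σ.symm (v.1 i), v.2⟩
  invFun x := ⟨fun i => σ (x.1 i), by
    rw [mem_sg]
    have e : (fun i => σ.symm (σ (x.1 i))) = x.1 := by ext i; simp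
    rw [e]; exact x.2⟩
  left_inv v := by ext i; simp
  right_inv x := by ext i; simp

theorem finrank_sg [Fintype F] (σ : F ≃+* F) (U : Submodule F (Fin n → F)) :
    Module.finrank F (sg σ U) = Module.finrank F U := by
  have h1 : Nat.card (sg σ U) = Nat.card F ^ Module.finrank F (sg σ U) :=
    Module.natCard_eq_pow_finrank
  have h2 : Nat.card U = Nat.card F ^ Module.finrank F U := Module.natCard_eq_pow_finrank
  have h3 : Nat.card (sg σ U) = Nat.card U := Nat.card_congr (sgEquiv σ U)
  have h4 : 2 ≤ Nat.card F := Finite.one_lt_card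
  exact Nat.pow_right_injective h4 (by simp only []; rw [← h1, ← h2, h3])

theorem del_eq (j : Jm n F) (U : Submodule F (Fin n → F)) :
    del j U = mg j.c ((dB n F).orthogonal (sg j.σ U)) := by
  ext v
  rw [mem_del, mem_mg']
  constructor
  · intro h w hw
    have h1 := h _ (mem_sg.1 hw)
    have e : (fun i => j.σ (j.σ.symm (w i))) = w := by ext i; simp
    rw [e] at h1
    exact h1
  · intro h x hx
    refine h (fun i => j.σ (x i)) ?_
    rw [mem_sg]
    have e : (fun i => j.σ.symm (j.σ (x i))) = x := by ext i; simp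
    rw [e]; exact hx

theorem jobD_DLa : H11.SimD.JobDLa := by
  intro n F _ _ j U
  have h := LinearMap.BilinForm.finrank_add_finrank_orthogonal (dB_refl (n := n) (F := F))
    (sg j.σ U)
  rw [dB_top, inf_bot_eq, finrank_bot, add_zero, finrank_sg, Module.finrank_fin_fun] at h
  rw [del_eq, finrank_mg, add_comm]
  exact h

end H54.SimDLa
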